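import Cfsg.Agent.Linear.Unipotent.Orbits

/-!
# The Cauchy determinant and the alternating sum of contingency numbers
-/

set_option autoImplicit false

namespace Cfsg.Agent.Linear.Unipotent

open Matrix

theorem det_vandermonde_succ {R : Type*} [CommRing R] {n : ℕ} (v : Fin (n + 1) → R) :
    (vandermonde v).det = (∏ i : Fin n, (v i.succ - v 0)) * (vandermonde (fun i : Fin n => v i.succ)).det := by
  rw [det_vandermonde, det_vandermonde, Fin.prod_univ_succ, Fin.prod_Ioi_zero]
  congr 1
  exact Finset.prod_congr rfl fun i _ => Fin.prod_Ioi_succ _ _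

/-- The Cauchy determinant. -/
theorem cauchy_det {R : Type*} [CommRing R] : ∀ (n : ℕ) (x y : Fin n → R) (u : Fin n → Fin n → R),
    (∀ i j, u i j * (1 - x i * y j) = 1) →
    (Matrix.of u).det = (vandermonde x).det * (vandermonde y).det * ∏ i, ∏ j, u i j := by
  intro n
  induction n with
  | zero => intro x y u _; simp
  | succ n ih =>
    intro x y u h
    let M₁ : Matrix (Fin (n + 1)) (Fin (n + 1)) R :=
      Matrix.of fun i j => if i = 0 then u 0 j else u i j - u 0 j
    have s1 : (Matrix.of u).det = M₁.det :=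
      Matrix.det_eq_of_forall_row_eq_smul_add_const (fun i => if i = 0 then 0 else 1) 0 (by simp)
        (fun i j => by rcases eq_or_ne i 0 with rfl | hi <;> simp [M₁, *])
    let M₂ : Matrix (Fin (n + 1)) (Fin (n + 1)) R :=
      Matrix.of fun i j => if i = 0 then 1 else y j * u i j
    have s2 : M₁ = Matrix.diagonal (fun i => if i = 0 then 1 else x i - x 0) * M₂ *
        Matrix.diagonal (fun j => u 0 j) := by
      ext i j
      rw [Matrix.mul_diagonal, Matrix.diagonal_mul]
      rcases eq_or_ne i 0 with rfl | hi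
      · simp [M₁, M₂]
      · simp [M₁, M₂, hi]
        linear_combination (-(u i j)) * h 0 j + u 0 j * h i j
    let M₃ : Matrix (Fin (n + 1)) (Fin (n + 1)) R :=
      Matrix.of fun i j => if j = 0 then M₂ i 0 else M₂ i j - M₂ i 0
    have s3 : M₂.det = M₃.det := by
      rw [← Matrix.det_transpose, ← Matrix.det_transpose M₃]
      refine Matrix.det_eq_of_forall_row_eq_smul_add_const (fun j => if j = 0 then 0 else 1) 0 (by simp)
        (fun j i => ?_)
      rcases eq_or_ne j 0 with rfl | hj <;> simp [M₃, *]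
    have s4 : M₃.det = (M₃.submatrix Fin.succ Fin.succ).det := by
      rw [Matrix.det_succ_row_zero, Fin.sum_univ_succ, Finset.sum_eq_zero]
      · simp [M₃, M₂, Fin.succAbove_zero]
      · intro j _; simp [M₃, M₂]
    have s5 : M₃.submatrix Fin.succ Fin.succ = Matrix.diagonal (fun i : Fin n => u i.succ 0) *
        Matrix.of (fun i j : Fin n => u i.succ j.succ) * Matrix.diagonal (fun j : Fin n => y j.succ - y 0) := by
      ext i j
      rw [Matrix.mul_diagonal, Matrix.diagonal_mul]
      simp [M₃, M₂]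
      linear_combination y 0 * u i.succ 0 * h i.succ j.succ - y j.succ * u i.succ j.succ * h i.succ 0
    rw [s1, s2, Matrix.det_mul, Matrix.det_mul, s3, s4, s5, Matrix.det_mul, Matrix.det_mul,
      ih (fun i => x i.succ) (fun j => y j.succ) _ (fun i j => h i.succ j.succ), Matrix.det_diagonal,
      Matrix.det_diagonal, Matrix.det_diagonal, Matrix.det_diagonal, det_vandermonde_succ x,
      det_vandermonde_succ y]
    simp only [Fin.prod_univ_succ, Fin.succ_ne_zero, if_false, if_true, Finset.prod_mul_distrib]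
    ring

section Series

open MvPowerSeries

variable {n : ℕ}

/-- The exponent of `x_i y_j`. -/
noncomputable def expo (p : Fin n × Fin n) : (Fin n ⊕ Fin n) →₀ ℕ :=
  Finsupp.single (Sum.inl p.1) 1 + Finsupp.single (Sum.inr p.2) 1

theorem expo_inl (p : Fin n × Fin n) (x : Fin n) : expo p (Sum.inl x) = if p.1 = x then 1 else 0 := by
  simp [expo, Finsupp.single_apply]

theorem expo_inr (p : Fin n × Fin n) (y : Fin n) : expo p (Sum.inr y) = if p.2 = y then 1 else 0 := by
  simp [expo, Finsupp.single_apply]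

open Classical in
/-- The geometric series in `x_i y_j`. -/
noncomputable def geo (p : Fin n × Fin n) : MvPowerSeries (Fin n ⊕ Fin n) ℤ :=
  fun d => if ∃ k : ℕ, d = k • expo p then 1 else 0

open Classical in
theorem coeff_geo (p : Fin n × Fin n) (d : (Fin n ⊕ Fin n) →₀ ℕ) :
    coeff d (geo p) = if ∃ k : ℕ, d = k • expo p then 1 else 0 := rfl

theorem geo_mul (p : Fin n × Fin n) :
    geo p * (1 - X (Sum.inl p.1) * X (Sum.inr p.2)) = 1 := by
  classical
  have hX : (X (Sum.inl p.1) * X (Sum.inr p.2) : MvPowerSeries (Fin n ⊕ Fin n) ℤ) = monomial (expo p) 1 := by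
    rw [← pow_one (X (Sum.inl p.1)), ← pow_one (X (Sum.inr p.2)), X_pow_eq, X_pow_eq, monomial_mul_monomial,
      one_mul, expo]
  rw [hX, mul_sub, mul_one]
  ext d
  rw [map_sub, coeff_mul_monomial, mul_one, coeff_one, coeff_geo, coeff_geo]
  rcases eq_or_ne d 0 with rfl | hd
  · have : ¬ expo p ≤ 0 := fun hle => by
      have := hle (Sum.inl p.1)
      simp [expo_inl] at this
    rw [if_pos ⟨0, by simp⟩, if_neg this, if_pos rfl, sub_zero]
  · rw [if_neg hd]
    by_cases hk : ∃ k : ℕ, d = k • expo p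
    · obtain ⟨k, rfl⟩ := hk
      rcases k with _ | k
      · simp at hd
      · have e : (k + 1) • expo p = k • expo p + expo p := succ_nsmul _ _
        rw [if_pos ⟨_, rfl⟩, e, if_pos le_add_self, add_tsub_cancel_right, if_pos ⟨k, rfl⟩, sub_self]
    · rw [if_neg hk, zero_sub, neg_eq_zero]
      split_ifs with h1 h2
      · obtain ⟨k, hk'⟩ := h2
        exact absurd ⟨k + 1, by rw [succ_nsmul, ← hk', tsub_add_cancel_of_le h1]⟩ hk
      · rfl
      · rfl

theorem coeff_prod_geo {ι : Type*} [Fintype ι] [DecidableEq ι] (f : ι → Fin n × Fin n)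
    (d : (Fin n ⊕ Fin n) →₀ ℕ) :
    coeff d (∏ p, geo (f p)) = (Nat.card {k : ι → ℕ // ∑ p, k p • expo (f p) = d} : ℤ) := by
  classical
  rw [coeff_prod, Finset.sum_congr rfl fun l _ => (Finset.prod_congr rfl fun p _ => coeff_geo (f p) (l p)).trans
    (Finset.prod_boole (p := fun p => ∃ k : ℕ, l p = k • expo (f p)))]
  simp only [Finset.mem_univ, forall_true_left, Finset.sum_boole]
  congr 1
  rw [← Nat.card_eq_finsetCard]
  have hu : ∀ (p : ι) (k : ℕ), (k • expo (f p)) (Sum.inl (f p).1) = k := fun p k => by simp [expo_inl]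
  refine Nat.card_congr
    { toFun := fun l => ⟨fun p => l.1 p (Sum.inl (f p).1), ?_⟩
      invFun := fun k => ⟨Finsupp.equivFunOnFinite.symm fun p => k.1 p • expo (f p), ?_⟩
      left_inv := ?_
      right_inv := ?_ }
  · obtain ⟨l, hl⟩ := l
    simp only [Finset.mem_filter, Finset.mem_finsuppAntidiag, Finset.mem_univ, forall_true_left] at hl
    refine Eq.trans (Finset.sum_congr rfl fun p _ => ?_) hl.1.1
    obtain ⟨k, hk⟩ := hl.2 p
    change (l p) (Sum.inl (f p).1) • expo (f p) = l p
    rw [hk, hu]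
  · simp only [Finset.mem_filter, Finset.mem_finsuppAntidiag, Finset.mem_univ, forall_true_left,
      Finsupp.coe_equivFunOnFinite_symm]
    exact ⟨⟨k.2, Finset.subset_univ _⟩, fun p => ⟨_, rfl⟩⟩
  · rintro ⟨l, hl⟩
    simp only [Finset.mem_filter, Finset.mem_univ, forall_true_left] at hl
    refine Subtype.ext (Finsupp.ext fun p => ?_)
    obtain ⟨k, hk⟩ := hl.2 p
    simp only [Finsupp.coe_equivFunOnFinite_symm]
    rw [hk, hu]
  · rintro ⟨k, hk⟩
    exact Subtype.ext (funext fun p => by simp [hu])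

theorem prod_monomial {ι : Type*} (s : Finset ι) (f : ι → (Fin n ⊕ Fin n) →₀ ℕ) :
    ∏ p ∈ s, (monomial (f p) (1 : ℤ) : MvPowerSeries (Fin n ⊕ Fin n) ℤ) = monomial (∑ p ∈ s, f p) 1 := by
  classical
  induction s using Finset.induction_on with
  | empty => simp [MvPowerSeries.monomial_zero_one]
  | insert a s ha ih => rw [Finset.prod_insert ha, Finset.sum_insert ha, ih, monomial_mul_monomial, one_mul]

theorem margins_card (u v : Fin n → ℕ) :
    Nat.card {k : Fin n × Fin n → ℕ //
      ∑ p, k p • expo p = Finsupp.equivFunOnFinite.symm (Sum.elim u v)} = Nat.card (Margins u v) := by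
  refine Nat.card_congr (Equiv.subtypeEquiv (Equiv.curry (Fin n) (Fin n) ℕ) fun k => ?_)
  rw [Finsupp.ext_iff, Sum.forall]
  refine and_congr (forall_congr' fun x => ?_) (forall_congr' fun y => ?_)
  · simp [Finsupp.finsetSum_apply, expo_inl, Fintype.sum_prod_type, Function.curry]
  · simp [Finsupp.finsetSum_apply, expo_inr, Fintype.sum_prod_type, Function.curry]

/-- The sign as an integer. -/
abbrev isgn (σ : Equiv.Perm (Fin n)) : ℤ := (Equiv.Perm.sign σ : ℤ)

theorem vandermonde_expand (w : Fin n → MvPowerSeries (Fin n ⊕ Fin n) ℤ) :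
    (vandermonde w).det = ∑ κ : Equiv.Perm (Fin n), (isgn κ : MvPowerSeries (Fin n ⊕ Fin n) ℤ) *
      ∏ i, w i ^ (κ i).val := by
  rw [← Matrix.det_transpose, Matrix.det_apply']
  exact Finset.sum_congr rfl fun κ _ => by simp [Matrix.vandermonde_apply]

theorem coeff_intCast_mul (d : (Fin n ⊕ Fin n) →₀ ℕ) (c : ℤ) (φ : MvPowerSeries (Fin n ⊕ Fin n) ℤ) :
    coeff d ((c : MvPowerSeries (Fin n ⊕ Fin n) ℤ) * φ) = c * coeff d φ := by
  rw [← zsmul_eq_mul, map_zsmul, smul_eq_mul]

/-- The alternating sum of contingency numbers. -/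
theorem alternating_margins (l l' : Fin n → ℕ) :
    (∑ κ : Equiv.Perm (Fin n), ∑ κ' : Equiv.Perm (Fin n),
      if (∀ i, (κ i).val ≤ l i) ∧ (∀ i, (κ' i).val ≤ l' i) then
        isgn κ * isgn κ' * (Nat.card (Margins (fun i => l i - (κ i).val) (fun i => l' i - (κ' i).val)) : ℤ)
      else 0) =
      ∑ σ : Equiv.Perm (Fin n), if ∀ i, l (σ i) = l' i then isgn σ else 0 := by
  classical
  set d : (Fin n ⊕ Fin n) →₀ ℕ := Finsupp.equivFunOnFinite.symm (Sum.elim l l') with hd
  have hdet := congrArg (coeff d) (cauchy_det n (fun i => (X (Sum.inl i) : MvPowerSeries (Fin n ⊕ Fin n) ℤ))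
    (fun j => X (Sum.inr j)) (fun i j => geo (i, j)) (fun i j => geo_mul (i, j)))
  rw [Matrix.det_apply', map_sum, vandermonde_expand, vandermonde_expand] at hdet
  simp only [Finset.mul_sum, Finset.sum_mul, map_sum] at hdet
  refine Eq.trans (Eq.trans ?_ hdet.symm) (Finset.sum_congr rfl fun σ _ => ?_)
  · rw [Finset.sum_comm]
    refine Finset.sum_congr rfl fun κ' _ => Finset.sum_congr rfl fun κ _ => ?_
    let e : (Fin n ⊕ Fin n) →₀ ℕ :=
      Finsupp.equivFunOnFinite.symm (Sum.elim (fun i => (κ i).val) (fun i => (κ' i).val))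
    have hmon : ((∏ i, X (Sum.inl i) ^ (κ i).val) * ∏ j, X (Sum.inr j) ^ (κ' j).val :
        MvPowerSeries (Fin n ⊕ Fin n) ℤ) = monomial e 1 := by
      simp only [X_pow_eq]
      rw [prod_monomial, prod_monomial, monomial_mul_monomial, one_mul]
      congr 2
      refine Finsupp.ext fun z => ?_
      cases z <;> simp [e, Finsupp.finsetSum_apply, Finsupp.single_apply]
    have hre : ((isgn κ : MvPowerSeries (Fin n ⊕ Fin n) ℤ) * ∏ i, X (Sum.inl i) ^ (κ i).val) *
        ((isgn κ' : MvPowerSeries (Fin n ⊕ Fin n) ℤ) * ∏ j, X (Sum.inr j) ^ (κ' j).val) *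
          ∏ i, ∏ j, geo (i, j) =
        ((isgn κ * isgn κ' : ℤ) : MvPowerSeries (Fin n ⊕ Fin n) ℤ) *
          (monomial e 1 * ∏ p : Fin n × Fin n, geo p) := by
      rw [← hmon, Fintype.prod_prod_type]; push_cast; ring
    rw [hre, coeff_intCast_mul, coeff_monomial_mul, one_mul]
    have hle : e ≤ d ↔ (∀ i, (κ i).val ≤ l i) ∧ ∀ i, (κ' i).val ≤ l' i := by
      rw [Finsupp.le_def, Sum.forall]
      simp [e, hd]
    by_cases hc : e ≤ d
    · rw [if_pos (hle.1 hc), if_pos hc, coeff_prod_geo (fun p => p) (d - e), ← margins_card]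
      congr 4
      ext k
      refine Iff.of_eq ?_
      congr 1
      refine Finsupp.ext fun z => ?_
      cases z <;> simp [e, hd]
    · rw [if_neg (fun h => hc (hle.2 h)), if_neg hc, mul_zero]
  · rw [coeff_intCast_mul]
    simp only [Matrix.of_apply]
    rw [coeff_prod_geo (fun i => (σ i, i)) d]
    have key : ∀ k : Fin n → ℕ, ∑ p, k p • expo (σ p, p) = d ↔ (k = l' ∧ ∀ i, l (σ i) = l' i) := by
      intro k
      rw [Finsupp.ext_iff, Sum.forall]
      simp only [Finsupp.finsetSum_apply, Finsupp.smul_apply, expo_inl, expo_inr, smul_eq_mul, mul_ite,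
        mul_one, mul_zero, hd, Finsupp.coe_equivFunOnFinite_symm, Sum.elim_inl, Sum.elim_inr,
        Finset.sum_ite_eq', Finset.mem_univ, if_true]
      constructor
      · rintro ⟨h1, h2⟩
        refine ⟨funext h2, fun i => ?_⟩
        rw [← h1 (σ i), ← h2 i, Finset.sum_eq_single i (fun j _ hj => if_neg fun h => hj (σ.injective h))
          (by simp), if_pos rfl]
      · rintro ⟨rfl, h1⟩
        refine ⟨fun x => ?_, fun y => rfl⟩
        obtain ⟨i, rfl⟩ := σ.surjective x
        rw [h1 i, Finset.sum_eq_single i (fun j _ hj => if_neg fun h => hj (σ.injective h))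
          (by simp), if_pos rfl]
    by_cases hc : ∀ i, l (σ i) = l' i
    · rw [if_pos hc]
      have : Nat.card {k : Fin n → ℕ // ∑ p, k p • expo (σ p, p) = d} = 1 :=
        Nat.card_eq_one_iff_exists.2 ⟨⟨l', (key _).2 ⟨rfl, hc⟩⟩, fun k => Subtype.ext ((key _).1 k.2).1⟩
      rw [this]; simp
    · rw [if_neg hc]
      have : IsEmpty {k : Fin n → ℕ // ∑ p, k p • expo (σ p, p) = d} :=
        ⟨fun k => hc ((key _).1 k.2).2⟩
      simp

/-- Strictly increasing sequences are orthonormal. -/
theorem alternating_margins_strictMono {l l' : Fin n → ℕ} (hl : StrictMono l) (hl' : StrictMono l') :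
    (∑ κ : Equiv.Perm (Fin n), ∑ κ' : Equiv.Perm (Fin n),
      if (∀ i, (κ i).val ≤ l i) ∧ (∀ i, (κ' i).val ≤ l' i) then
        isgn κ * isgn κ' * (Nat.card (Margins (fun i => l i - (κ i).val) (fun i => l' i - (κ' i).val)) : ℤ)
      else 0) = if l = l' then 1 else 0 := by
  rw [alternating_margins]
  have hone : ∀ σ : Equiv.Perm (Fin n), (∀ i, l (σ i) = l' i) → σ = 1 := by
    intro σ h
    have hσ : StrictMono σ := fun a b hab => by
      have := hl' hab
      rw [← h, ← h] at this
      exact hl.lt_iff_lt.1 this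
    ext i
    have := congrArg (fun e : Fin n ≃o Fin n => e i)
      (Subsingleton.elim (StrictMono.orderIsoOfSurjective σ hσ σ.surjective) (OrderIso.refl _))
    simpa using congrArg Fin.val this
  rw [Finset.sum_eq_single 1 (fun σ _ hσ => if_neg fun h => hσ (hone σ h)) (by simp)]
  simp [funext_iff, isgn]

end Series

end Cfsg.Agent.Linear.Unipotent
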