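import Cfsg.Agent.Linear.Unipotent.Bruhat
import Cfsg.Agent.Linear.Unipotent.Cauchy

/-!
# Orthonormality of the alternating sums of flag characters
-/

set_option autoImplicit false

namespace Cfsg.Agent.Linear.Unipotent

open Cfsg
open scoped ComplexConjugate

variable {n : ℕ} {F : Type*} [Field F]

theorem sum_shift {ν : Fin n → ℕ} (hsum : ∑ i, ν i = n) {κ : Equiv.Perm (Fin n)}
    (h : ∀ i, (κ i).val ≤ ν i + i.val) : ∑ i, (ν i + i.val - (κ i).val) = n := by
  have h1 : ∑ i, (ν i + i.val - (κ i).val) + ∑ i, (κ i).val = ∑ i, (ν i + i.val) := by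
    rw [← Finset.sum_add_distrib]
    exact Finset.sum_congr rfl fun i _ => Nat.sub_add_cancel (h i)
  rw [Finset.sum_add_distrib, hsum, Equiv.sum_comp κ (fun i : Fin n => i.val)] at h1
  omega

theorem strictMono_shift {ν : Fin n → ℕ} (hmono : Monotone ν) : StrictMono fun i => ν i + i.val :=
  fun _ _ h => Nat.add_lt_add_of_le_of_lt (hmono h.le) h

theorem inner_unipotentCharacter [Fintype F] [DecidableEq F] {ν ν' : Fin n → ℕ} (hmono : Monotone ν)
    (hsum : ∑ i, ν i = n) (hmono' : Monotone ν') (hsum' : ∑ i, ν' i = n) :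
    classInner (unipotentCharacterGL n F ν) (unipotentCharacterGL n F ν') = if ν = ν' then 1 else 0 := by
  classical
  have key : classInner (unipotentCharacterGL n F ν) (unipotentCharacterGL n F ν') =
      ((∑ κ : Equiv.Perm (Fin n), ∑ κ' : Equiv.Perm (Fin n),
        if (∀ i, (κ i).val ≤ ν i + i.val) ∧ (∀ i, (κ' i).val ≤ ν' i + i.val) then
          isgn κ * isgn κ' * (Nat.card (Margins (fun i => ν i + i.val - (κ i).val)
            (fun i => ν' i + i.val - (κ' i).val)) : ℤ)
        else 0 : ℤ) : ℂ) := by
    simp only [classInner, unipotentCharacterGL, map_sum, Finset.sum_mul, Finset.mul_sum, Int.cast_sum]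
    rw [Finset.sum_comm]
    conv_rhs => rw [Finset.sum_comm]
    refine Finset.sum_congr rfl fun κ' _ => ?_
    rw [Finset.sum_comm]
    refine Finset.sum_congr rfl fun κ _ => ?_
    by_cases h : ∀ i, (κ i).val ≤ ν i + i.val
    · by_cases h' : ∀ i, (κ' i).val ≤ ν' i + i.val
      · rw [if_pos (And.intro h h')]
        push_cast
        rw [← average_parabolic (F := F) (sum_shift hsum h) (sum_shift hsum' h'), Finset.mul_sum, Finset.mul_sum]
        refine Finset.sum_congr rfl fun g _ => ?_
        rw [if_pos h, if_pos h', fixedPointCharacter, fixedPointCharacter, map_mul, Complex.conj_natCast,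
          map_intCast]
        ring
      · simp [h']
    · simp [h]
  rw [key, alternating_margins_strictMono (strictMono_shift hmono) (strictMono_shift hmono')]
  by_cases h : ν = ν'
  · simp [h]
  · rw [if_neg h, if_neg (fun e => h (funext fun i => Nat.add_right_cancel (congrFun e i)))]
    simp

theorem isGen_unipotentCharacter [Fintype F] [DecidableEq F] (ν : Fin n → ℕ) :
    IsGeneralizedCharacter (GL (Fin n) F) (unipotentCharacterGL n F ν) := by
  classical
  have : unipotentCharacterGL n F ν = ∑ κ : Equiv.Perm (Fin n),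
      if ∀ i : Fin n, (κ i).val ≤ ν i + i.val then
        ((isgn κ : ℤ) : ℂ) • fixedPointCharacter (parabolicGL n F fun i => ν i + i.val - (κ i).val)
      else 0 := by
    funext g
    simp only [unipotentCharacterGL, Finset.sum_apply]
    exact Finset.sum_congr rfl fun κ _ => by split_ifs <;> simp [isgn]
  rw [this]
  refine Cfsg.Agent.Chars.isGen_sum _ _ fun κ _ => ?_
  split_ifs
  · exact Cfsg.Agent.Chars.isGen_intCast_smul
      (Cfsg.Agent.Chars.isGen_of_isCharacter (isCharacter_fixedPointCharacter _)) _
  · exact Cfsg.Agent.Chars.isGen_zero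

end Cfsg.Agent.Linear.Unipotent
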