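import Cfsg.Agent.Linear.Unipotent.Chars

/-!
# Indices of parabolic subgroups and the degrees
-/

set_option autoImplicit false

namespace Cfsg.Agent.Linear.Unipotent

open Cfsg Matrix

/-- The q-integer. -/
def qInt (q m : ℕ) : ℕ := ∑ l ∈ Finset.range m, q ^ l

/-- The q-factorial. -/
def qFac (q m : ℕ) : ℕ := ∏ j ∈ Finset.range m, qInt q (j + 1)

/-- The triangular numbers. -/
def tri (m : ℕ) : ℕ := ∑ i ∈ Finset.range m, i

theorem two_tri (m : ℕ) : 2 * tri m + m = m * m := by
  induction m with
  | zero => rfl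
  | succ m ih => rw [tri, Finset.sum_range_succ, ← tri]; linarith

theorem qFac_ne_zero {q : ℕ} (hq : q ≠ 0) (m : ℕ) : qFac q m ≠ 0 :=
  Finset.prod_ne_zero_iff.2 fun j _ => by
    rw [qInt, Finset.sum_range_succ]
    exact Nat.pos_iff_ne_zero.1 (Nat.add_pos_right _ (pow_pos (Nat.pos_of_ne_zero hq) _))

theorem prod_gl_factors {q : ℕ} (hq : 1 ≤ q) (m : ℕ) :
    (∏ i : Fin m, (q ^ m - q ^ (i : ℕ))) = q ^ tri m * (q - 1) ^ m * qFac q m := by
  rw [Fin.prod_univ_eq_prod_range (fun i => q ^ m - q ^ i) m]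
  have : ∀ i ∈ Finset.range m, q ^ m - q ^ i = q ^ i * (q - 1) * qInt q (m - i) := by
    intro i hi
    rw [Finset.mem_range] at hi
    rw [mul_assoc, mul_comm (q - 1), qInt, geom_sum_mul_of_one_le hq, Nat.mul_sub, ← pow_add, mul_one,
      show i + (m - i) = m by omega]
  rw [Finset.prod_congr rfl this, Finset.prod_mul_distrib, Finset.prod_mul_distrib, Finset.prod_const,
    Finset.card_range, Finset.prod_pow_eq_pow_sum, qFac, ← Finset.prod_range_reflect (fun j => qInt q (j + 1)) m]
  congr 1
  exact Finset.prod_congr rfl fun i hi => by rw [Finset.mem_range] at hi; congr 1; omega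

variable {n : ℕ} {F : Type*} [Field F]

theorem card_GL_fintype [Fintype F] {ι : Type*} [Fintype ι] [DecidableEq ι] :
    Nat.card (GL ι F) = Fintype.card F ^ tri (Fintype.card ι) * (Fintype.card F - 1) ^ Fintype.card ι *
      qFac (Fintype.card F) (Fintype.card ι) := by
  rw [← prod_gl_factors Fintype.card_pos, ← Matrix.card_GL_field]
  exact Nat.card_congr (Units.mapEquiv
    (Matrix.reindexAlgEquiv F F (Fintype.equivFin ι)).toRingEquiv.toMulEquiv).toEquiv

open Classical in
/-- A block triangular element is its diagonal blocks and the entries above them. -/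
noncomputable def blockEquiv {A : Type*} [LinearOrder A] [Fintype A] (a : Fin n → A) :
    {g : GL (Fin n) F // (g : Matrix (Fin n) (Fin n) F).BlockTriangular a} ≃
      (∀ x : A, GL {i : Fin n // a i = x} F) × ({p : Fin n × Fin n // a p.1 < a p.2} → F) :=
  let mk : (∀ x : A, GL {i : Fin n // a i = x} F) → ({p : Fin n × Fin n // a p.1 < a p.2} → F) →
      Matrix (Fin n) (Fin n) F := fun d u i j =>
    if h : a i = a j then
      (d (a i) : Matrix {k // a k = a i} {k // a k = a i} F) ⟨i, rfl⟩ ⟨j, h.symm⟩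
    else if h' : a i < a j then u ⟨(i, j), h'⟩ else 0
  have hbt : ∀ d u, (mk d u).BlockTriangular a := fun d u i j hij => by
    simp [mk, hij.ne', not_lt.2 hij.le]
  have hblock : ∀ d u x, (mk d u).toSquareBlock a x = (d x : Matrix _ _ F) := by
    intro d u x
    ext ⟨i, hi⟩ ⟨j, hj⟩
    subst hi
    change mk d u i j = _
    simp [mk, hj]
  { toFun := fun g => (fun x => GeneralLinearGroup.mkOfDetNeZero
        (((g.1 : GL (Fin n) F) : Matrix (Fin n) (Fin n) F).toSquareBlock a x) (by
          have hne : ((g.1 : GL (Fin n) F) : Matrix (Fin n) (Fin n) F).det ≠ 0 :=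
            ((Matrix.isUnit_iff_isUnit_det _).1 g.1.isUnit).ne_zero
          rw [g.2.det_fintype] at hne
          exact Finset.prod_ne_zero_iff.1 hne x (Finset.mem_univ _)),
      fun p => (g.1 : Matrix (Fin n) (Fin n) F) p.1.1 p.1.2)
    invFun := fun p => ⟨GeneralLinearGroup.mkOfDetNeZero (mk p.1 p.2) (by
        rw [(hbt p.1 p.2).det_fintype, Finset.prod_ne_zero_iff]
        intro x _
        rw [hblock]
        exact ((Matrix.isUnit_iff_isUnit_det _).1 (p.1 x).isUnit).ne_zero), hbt p.1 p.2⟩
    left_inv := fun g => by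
      refine Subtype.ext (Units.ext (Matrix.ext fun i j => ?_))
      change mk _ _ i j = _
      simp only [mk]
      split_ifs with h h'
      · rfl
      · rfl
      · exact (g.2 (lt_of_le_of_ne (not_lt.1 h') (Ne.symm h))).symm
    right_inv := fun p => by
      refine Prod.ext (funext fun x => Units.ext ?_) (funext fun q => ?_)
      · exact hblock p.1 p.2 x
      · change mk p.1 p.2 q.1.1 q.1.2 = p.2 q
        simp [mk, q.2.ne, q.2] }

theorem card_parabolic [Fintype F] {μ : Fin n → ℕ} (hμ : ∑ i, μ i = n) :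
    Nat.card (parabolicGL n F μ) * qFac (Fintype.card F) n =
      Nat.card (GL (Fin n) F) * ∏ i, qFac (Fintype.card F) (μ i) := by
  classical
  set q := Fintype.card F
  set a := label hμ
  have hP : Nat.card (parabolicGL n F μ) = (∏ x, q ^ tri (μ x) * (q - 1) ^ μ x * qFac q (μ x)) *
      q ^ Fintype.card {p : Fin n × Fin n // a p.1 < a p.2} := by
    rw [Nat.card_congr ((Equiv.subtypeEquivRight fun g => parabolic_mem_iff hμ g).trans (blockEquiv a)),
      Nat.card_prod, Nat.card_pi, Nat.card_fun, Nat.card_eq_fintype_card (α := F),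
      Nat.card_eq_fintype_card (α := {p : Fin n × Fin n // a p.1 < a p.2})]
    congr 1
    refine Finset.prod_congr rfl fun x _ => ?_
    rw [card_GL_fintype, card_label_fiber]
  have hexp : ∑ x, tri (μ x) + Fintype.card {p : Fin n × Fin n // a p.1 < a p.2} = tri n := by
    have h1 := two_tri n
    have h2 : ∑ x, (2 * tri (μ x) + μ x) = ∑ x, μ x * μ x := Finset.sum_congr rfl fun x _ => two_tri _
    rw [Finset.sum_add_distrib, ← Finset.mul_sum, hμ] at h2
    have heq : Fintype.card {p : Fin n × Fin n // a p.1 = a p.2} = ∑ x, μ x * μ x := by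
      rw [Fintype.card_congr (Equiv.mk
        (fun p : {p : Fin n × Fin n // a p.1 = a p.2} =>
          (⟨a p.1.1, ⟨p.1.1, rfl⟩, ⟨p.1.2, p.2.symm⟩⟩ : Σ x, {i // a i = x} × {i // a i = x}))
        (fun s => ⟨(s.2.1.1, s.2.2.1), s.2.1.2.trans s.2.2.2.symm⟩)
        (fun p => rfl) (fun ⟨x, ⟨i, hi⟩, ⟨j, hj⟩⟩ => by subst hi; rfl)), Fintype.card_sigma]
      simp only [Fintype.card_prod, a, card_label_fiber]
    have hswap : Fintype.card {p : Fin n × Fin n // a p.2 < a p.1} =
        Fintype.card {p : Fin n × Fin n // a p.1 < a p.2} :=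
      Fintype.card_congr (Equiv.subtypeEquiv (Equiv.prodComm _ _) fun p => Iff.rfl)
    have htot : Fintype.card {p : Fin n × Fin n // a p.1 < a p.2} +
        (Fintype.card {p : Fin n × Fin n // a p.1 = a p.2} +
          Fintype.card {p : Fin n × Fin n // a p.2 < a p.1}) = n * n := by
      simp only [Fintype.card_subtype]
      rw [← Finset.card_union_of_disjoint, ← Finset.card_union_of_disjoint]
      · refine (congrArg Finset.card (Finset.eq_univ_of_forall ?_)).trans (by simp)
        intro p
        rcases lt_trichotomy (a p.1) (a p.2) with h | h | h <;> simp [h]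
      · rw [Finset.disjoint_left]
        intro p h1 h2
        simp only [Finset.mem_filter, Finset.mem_union, Finset.mem_univ, true_and] at h1 h2
        rcases h2 with h2 | h2
        · exact absurd h2 h1.ne
        · exact absurd h2 h1.not_gt
      · rw [Finset.disjoint_left]
        intro p h1 h2
        simp only [Finset.mem_filter, Finset.mem_univ, true_and] at h1 h2
        exact h2.ne h1.symm
    omega
  rw [hP, card_GL_fintype, Fintype.card_fin, Finset.prod_mul_distrib, Finset.prod_mul_distrib,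
    Finset.prod_pow_eq_pow_sum, Finset.prod_pow_eq_pow_sum, hμ, ← hexp, pow_add]
  ring

/-- The number of flags. -/
theorem index_parabolic [Fintype F] {μ : Fin n → ℕ} (hμ : ∑ i, μ i = n) :
    Nat.card (GL (Fin n) F ⧸ parabolicGL n F μ) * ∏ i, qFac (Fintype.card F) (μ i) =
      qFac (Fintype.card F) n := by
  refine Nat.eq_of_mul_eq_mul_left (Nat.card_pos (α := parabolicGL n F μ)) ?_
  rw [← mul_assoc, mul_comm (Nat.card (parabolicGL n F μ)) (Nat.card (_ ⧸ _)),
    ← Subgroup.card_eq_card_quotient_mul_card_subgroup, card_parabolic hμ]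

/-- The falling q-factorial. -/
def qFall (q m j : ℕ) : ℕ := ∏ l ∈ Finset.range j, qInt q (m - l)

theorem qFall_mul (q m : ℕ) : ∀ j ≤ m, qFall q m j * qFac q (m - j) = qFac q m := by
  intro j
  induction j with
  | zero => intro _; simp [qFall]
  | succ j ih =>
    intro h
    rw [← ih (by omega), qFall, Finset.prod_range_succ, ← qFall, show m - j = m - (j + 1) + 1 by omega,
      show qFac q (m - (j + 1) + 1) = qFac q (m - (j + 1)) * qInt q (m - (j + 1) + 1) from
        Finset.prod_range_succ _ _]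
    ring

theorem qFall_eq_zero (q : ℕ) {m j : ℕ} (h : m < j) : qFall q m j = 0 :=
  Finset.prod_eq_zero (Finset.mem_range.2 h) (by simp [qInt])

theorem qInt_sub (q : ℕ) {m l : ℕ} (h : l ≤ m) :
    (qInt q m : ℂ) - (qInt q l : ℂ) = (q : ℂ) ^ l * (qInt q (m - l) : ℂ) := by
  have : qInt q m = qInt q l + q ^ l * qInt q (m - l) := by
    conv_lhs => rw [show m = l + (m - l) by omega, qInt, Finset.sum_range_add]
    rw [qInt, qInt, Finset.mul_sum]
    simp only [pow_add]
  rw [this]
  push_cast
  ring

theorem pow_tri_mul_qFall (q m j : ℕ) :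
    (q : ℂ) ^ tri j * (qFall q m j : ℂ) = ∏ l ∈ Finset.range j, ((qInt q m : ℂ) - (qInt q l : ℂ)) := by
  rcases le_or_gt j m with h | h
  · rw [qFall, Nat.cast_prod, tri, ← Finset.prod_pow_eq_pow_sum, ← Finset.prod_mul_distrib]
    exact Finset.prod_congr rfl fun l hl => (qInt_sub q (by rw [Finset.mem_range] at hl; omega)).symm
  · rw [qFall_eq_zero q h, Nat.cast_zero, mul_zero]
    exact (Finset.prod_eq_zero (Finset.mem_range.2 h) (sub_self _)).symm

theorem sum_tri (m : ℕ) : ∑ j : Fin m, tri j.val = m * (m - 1) * (m - 2) / 6 := by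
  have h : 6 * ∑ j ∈ Finset.range m, tri j = m * (m - 1) * (m - 2) := by
    induction m with
    | zero => rfl
    | succ m ih =>
      rw [Finset.sum_range_succ, mul_add, ih]
      have := two_tri m
      rcases m with _ | _ | m
      · rfl
      · rfl
      · simp only [show m + 1 + 1 - 1 = m + 1 by omega, show m + 1 + 1 - 2 = m by omega,
          show m + 1 + 1 + 1 - 1 = m + 1 + 1 by omega, show m + 1 + 1 + 1 - 2 = m + 1 by omega]
        linarith
  rw [Fin.sum_univ_eq_sum_range tri m, ← h, Nat.mul_div_cancel_left _ (by norm_num)]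

/-- The degree formula. -/
theorem degree_unipotentCharacter [Fintype F] (ν : Fin n → ℕ) (hsum : ∑ i, ν i = n) :
    unipotentCharacterGL n F ν 1 * (Fintype.card F : ℂ) ^ (n * (n - 1) * (n - 2) / 6) *
        ∏ i, (qFac (Fintype.card F) (ν i + i.val) : ℂ) =
      (qFac (Fintype.card F) n : ℂ) *
        ∏ i : Fin n, ∏ j ∈ Finset.Ioi i,
          ((qInt (Fintype.card F) (ν j + j.val) : ℂ) - (qInt (Fintype.card F) (ν i + i.val) : ℂ)) := by
  classical
  set q := Fintype.card F
  have hdet : ∏ i : Fin n, ∏ j ∈ Finset.Ioi i,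
      ((qInt q (ν j + j.val) : ℂ) - (qInt q (ν i + i.val) : ℂ)) =
      ∑ κ : Equiv.Perm (Fin n), ((Equiv.Perm.sign κ : ℤ) : ℂ) *
        ∏ i, ∏ l ∈ Finset.range (κ i).val, ((qInt q (ν i + i.val) : ℂ) - (qInt q l : ℂ)) := by
    rw [← Matrix.det_vandermonde, Matrix.det_eval_matrixOfPolynomials_eq_det_vandermonde _
      (fun j : Fin n => ∏ l ∈ Finset.range j.val, (Polynomial.X - Polynomial.C (qInt q l : ℂ)))
      (fun j => by
        rw [Polynomial.natDegree_prod_of_monic _ _ (fun l _ => Polynomial.monic_X_sub_C _),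
          Finset.sum_congr rfl fun l _ => Polynomial.natDegree_X_sub_C _]
        simp)
      (fun j => Polynomial.monic_prod_of_monic _ _ fun l _ => Polynomial.monic_X_sub_C _),
      ← Matrix.det_transpose, Matrix.det_apply']
    exact Finset.sum_congr rfl fun κ _ => by simp [Polynomial.eval_prod]
  rw [hdet, unipotentCharacterGL, Finset.sum_mul, Finset.sum_mul, Finset.mul_sum]
  refine Finset.sum_congr rfl fun κ _ => ?_
  simp only [← pow_tri_mul_qFall]
  rw [Finset.prod_mul_distrib, Finset.prod_pow_eq_pow_sum, Equiv.sum_comp κ (fun j : Fin n => tri j.val),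
    sum_tri]
  by_cases h : ∀ i : Fin n, (κ i).val ≤ ν i + i.val
  · rw [if_pos h, fixedPointCharacter_one, ← index_parabolic (F := F) (sum_shift hsum h),
      Finset.prod_congr rfl fun i _ => (congrArg (Nat.cast (R := ℂ)) (qFall_mul q _ _ (h i))).symm]
    simp only [Nat.cast_mul, Nat.cast_prod, Finset.prod_mul_distrib]
    ring
  · rw [if_neg h]
    push Not at h
    obtain ⟨i, hi⟩ := h
    rw [Finset.prod_eq_zero (f := fun x : Fin n => (qFall q (ν x + x.val) (κ x).val : ℂ))
      (Finset.mem_univ i) (by rw [qFall_eq_zero q hi, Nat.cast_zero])]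
    simp

/-- The degree is positive, so the character is irreducible. -/
theorem isIrr_unipotentCharacter [Fintype F] {ν : Fin n → ℕ} (hmono : Monotone ν) (hsum : ∑ i, ν i = n) :
    IsIrrCharacter (GL (Fin n) F) (unipotentCharacterGL n F ν) := by
  classical
  refine (Cfsg.Agent.Chars.isIrrCharacter_of_gen_norm_one (isGen_unipotentCharacter ν)
    (by rw [inner_unipotentCharacter hmono hsum hmono hsum, if_pos rfl])).resolve_right fun h => ?_
  obtain ⟨k, hk⟩ := Cfsg.Agent.Chars.exists_apply_one_eq (Cfsg.Agent.Chars.isCharacter_of_isIrr h)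
  rw [Pi.neg_apply, neg_eq_iff_eq_neg] at hk
  set q := Fintype.card F
  have hlt : ∀ {a b : ℕ}, a < b → qInt q a < qInt q b := fun {a b} hab => by
    refine Finset.sum_lt_sum_of_subset (Finset.range_subset_range.2 hab.le) (i := a)
      (Finset.mem_range.2 hab) (by simp) (pow_pos Fintype.card_pos _) (fun _ _ _ => Nat.zero_le _)
  let R : ℕ := qFac q n * ∏ i : Fin n, ∏ j ∈ Finset.Ioi i, (qInt q (ν j + j.val) - qInt q (ν i + i.val))
  have hR : R ≠ 0 := mul_ne_zero (qFac_ne_zero Fintype.card_ne_zero n)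
    (Finset.prod_ne_zero_iff.2 fun i _ => Finset.prod_ne_zero_iff.2 fun j hj =>
      Nat.sub_ne_zero_of_lt (hlt (strictMono_shift hmono (Finset.mem_Ioi.1 hj))))
  have hdeg := degree_unipotentCharacter (F := F) ν hsum
  rw [hk] at hdeg
  have hRc : (R : ℂ) = (qFac q n : ℂ) * ∏ i : Fin n, ∏ j ∈ Finset.Ioi i,
      ((qInt q (ν j + j.val) : ℂ) - (qInt q (ν i + i.val) : ℂ)) := by
    simp only [R, Nat.cast_mul, Nat.cast_prod]
    refine congrArg _ (Finset.prod_congr rfl fun i _ => Finset.prod_congr rfl fun j hj => ?_)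
    rw [Nat.cast_sub (hlt (strictMono_shift hmono (Finset.mem_Ioi.1 hj))).le]
  rw [← hRc, neg_mul, neg_mul, neg_eq_iff_add_eq_zero] at hdeg
  have : ((k * q ^ (n * (n - 1) * (n - 2) / 6) * ∏ i, qFac q (ν i + i.val) + R : ℕ) : ℂ) = 0 := by
    push_cast
    exact hdeg
  rw [Nat.cast_eq_zero] at this
  omega

end Cfsg.Agent.Linear.Unipotent
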